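import Mathlib
import Cfsg.Agent.Lib.Helper51.TIH.Defs
import Cfsg.Agent.S0023

/-!
# TIH (S4118), package [AUT]

Coprime automorphisms of a solvable group with cyclic or quaternion Sylow subgroups: the derived
group acts trivially.
-/

set_option autoImplicit false

namespace Cfsg.Agent.Lib.Helper97.TIH

open Cfsg.Agent.Lib.Helper51.TIH

universe u

theorem pkgAut (hP : PkgAutP.{u}) : PkgAut.{u} := by
  intro G _ _ H A hAH hcop hsolv hCQ
  classical
  rw [Subgroup.le_centralizer_iff]
  -- D' : the part of H centralizing ⁅A, A⁆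
  set D' : Subgroup H := (Subgroup.centralizer ((⁅A, A⁆ : Subgroup G) : Set G)).subgroupOf H
    with hD'
  have hidx : D'.index = 1 := by
    by_contra hne
    obtain ⟨p, hp, hpd⟩ := Nat.exists_prime_and_dvd hne
    haveI : Fact p.Prime := ⟨hp⟩
    have hpH : p ∣ Nat.card H := hpd.trans (Subgroup.index_dvd_card D')
    have hpA : ¬ p ∣ Nat.card A := by
      intro h
      have h1 : p ∣ Nat.gcd (Nat.card A) (Nat.card H) := Nat.dvd_gcd h hpH
      rw [hcop] at h1
      exact hp.one_lt.ne' (Nat.dvd_one.mp h1)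
    obtain ⟨P, hPA⟩ := Cfsg.Agent.S0023.result A H hAH hcop (Or.inr hsolv) p
    have hTp : IsPGroup p ((P : Subgroup H).map H.subtype) := P.isPGroup'.map H.subtype
    let e : ↥((P : Subgroup H).map H.subtype) ≃* ↥(P : Subgroup H) :=
      ((P : Subgroup H).equivMapOfInjective H.subtype Subtype.coe_injective).symm
    have hTcq : IsCyclic ↥((P : Subgroup H).map H.subtype) ∨
        ∃ n : ℕ, Nonempty (↥((P : Subgroup H).map H.subtype) ≃* QuaternionGroup (2 ^ n)) := by
      rcases hCQ p P with hc | ⟨n, ⟨f⟩⟩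
      · left
        haveI := hc
        exact isCyclic_of_surjective e.symm.toMonoidHom e.symm.surjective
      · right
        exact ⟨n, ⟨e.trans f⟩⟩
    have hcent := hP G ((P : Subgroup H).map H.subtype) A p hPA hTp hpA hTcq
    rw [Subgroup.le_centralizer_iff] at hcent
    have hPD : (P : Subgroup H) ≤ D' := by
      intro x hx
      rw [hD', Subgroup.mem_subgroupOf]
      exact hcent (Subgroup.mem_map_of_mem H.subtype hx)
    have h1 : D'.index ∣ (P : Subgroup H).index := Subgroup.index_dvd_of_le hPD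
    exact P.not_dvd_index (hpd.trans h1)
  have htop : D' = ⊤ := Subgroup.index_eq_one.mp hidx
  intro h hh
  have h2 : (⟨h, hh⟩ : H) ∈ D' := by rw [htop]; exact Subgroup.mem_top _
  rw [hD', Subgroup.mem_subgroupOf] at h2
  exact h2

end Cfsg.Agent.Lib.Helper97.TIH
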